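import Mathlib

/-!
Pairs with central commutator of order `p`, and the dimension of their representations.
-/

set_option autoImplicit false

namespace Cfsg.Agent.XP

open Subgroup
open scoped commutatorElement

/-- A pair with central commutator of order `p`. -/
def Tri (p : ℕ) (G : Type*) [Group G] : Prop :=
  ∃ x y : G, ⁅x, y⁆ ≠ 1 ∧ ⁅x, y⁆ ^ p = 1 ∧ Commute ⁅x, y⁆ x ∧ Commute ⁅x, y⁆ y

/-- There is a non-abelian `p`-subgroup. -/
def NA (p : ℕ) (G : Type*) [Group G] : Prop :=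
  ∃ S : Subgroup G, IsPGroup p S ∧ ∃ x ∈ S, ∃ y ∈ S, ¬ Commute x y

/-- The Sylow `p`-subgroups are non-abelian of order `p ^ 3`. -/
structure H3 (p : ℕ) (G : Type*) [Group G] : Prop where
  val : (Nat.card G).factorization p = 3
  tri : Tri p G
  na : NA p G

section Grp

variable {p : ℕ} {G H : Type*} [Group G] [Group H]

theorem Tri.map (h : Tri p G) (f : G →* H) (hf : Function.Injective f) : Tri p H := by
  obtain ⟨x, y, h1, h2, h3, h4⟩ := h
  refine ⟨f x, f y, ?_, ?_, ?_, ?_⟩ <;> rw [← map_commutatorElement]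
  · exact fun h => h1 (hf (h.trans (map_one f).symm))
  · rw [← map_pow, h2, map_one]
  · exact h3.map f
  · exact h4.map f

theorem NA.map (h : NA p G) (f : G →* H) (hf : Function.Injective f) : NA p H := by
  obtain ⟨S, h1, x, hx, y, hy, h2⟩ := h
  exact ⟨S.map f, h1.map f, f x, mem_map_of_mem f hx, f y, mem_map_of_mem f hy,
    fun h => h2 (Commute.of_map hf h)⟩

theorem H3.of_equiv (h : H3 p G) (e : G ≃* H) : H3 p H :=
  ⟨by rw [← Nat.card_congr e.toEquiv, h.val], h.tri.map e.toMonoidHom e.injective,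
    h.na.map e.toMonoidHom e.injective⟩

theorem NA.not_comm [Fact p.Prime] [Finite G] (h : NA p G) (P : Sylow p G) :
    ¬ IsMulCommutative (P : Subgroup G) := by
  obtain ⟨S, h1, x, hx, y, hy, h2⟩ := h
  obtain ⟨Q, hQ⟩ := h1.exists_le_sylow
  intro hP
  let e := Sylow.equiv P Q
  obtain ⟨a, ha⟩ := e.surjective ⟨x, hQ hx⟩
  obtain ⟨b, hb⟩ := e.surjective ⟨y, hQ hy⟩
  have := congrArg (fun c => ((e c : (Q : Subgroup G)) : G)) (hP.is_comm.comm a b)
  simp only [map_mul, ha, hb] at this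
  exact h2 this

theorem H3.dvd [Fact p.Prime] [Finite G] (h : H3 p G) : p ^ 3 ∣ Nat.card G :=
  ((Fact.out : p.Prime).pow_dvd_iff_le_factorization Nat.card_pos.ne').2 h.val.ge

theorem H3.not_dvd [Fact p.Prime] [Finite G] (h : H3 p G) : ¬ p ^ 4 ∣ Nat.card G := by
  rw [(Fact.out : p.Prime).pow_dvd_iff_le_factorization Nat.card_pos.ne', h.val]
  omega

theorem H3.not_dvd_mul [Fact p.Prime] [Finite G] (h : H3 p G) {c : ℕ} (hc : ¬ p ∣ c) :
    ¬ p ^ 4 ∣ c * Nat.card G := fun h1 =>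
  h.not_dvd ((Nat.Coprime.pow_left 4 (((Fact.out : p.Prime).coprime_iff_not_dvd).2 hc)).dvd_of_dvd_mul_left h1)

theorem H3.false_of_hom [Fact p.Prime] [Finite G] (h : H3 p G) {A : Type*} [CommGroup A]
    (f : A →* G) (hf : Function.Injective f) (hA : Nat.card A = p ^ 3) : False := by
  have h1 : Nat.card f.range = p ^ (Nat.card G).factorization p := by
    rw [h.val, ← hA, ← Nat.card_congr (MonoidHom.ofInjective hf).toEquiv]
  refine h.na.not_comm (Sylow.ofCard _ h1) ⟨⟨?_⟩⟩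
  rintro ⟨_, a, rfl⟩ ⟨_, b, rfl⟩
  exact Subtype.ext (by
    change f a * f b = f b * f a
    rw [← map_mul, mul_comm, map_mul])

theorem commutatorElement_pow_left {x y : G} (h : Commute ⁅x, y⁆ x) (n : ℕ) :
    ⁅x ^ n, y⁆ = ⁅x, y⁆ ^ n := by
  induction n with
  | zero => simp
  | succ n ih =>
    have h1 : ⁅x ^ (n + 1), y⁆ = x * ⁅x ^ n, y⁆ * x⁻¹ * ⁅x, y⁆ := by
      simp only [commutatorElement_def, pow_succ']; group
    rw [h1, ih, ← (h.pow_left n).eq, mul_inv_cancel_right, pow_succ]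

theorem Tri.lift [hp : Fact p.Prime] (h : Tri p (G ⧸ center G)) {m : ℕ} (hm : ¬ p ∣ m)
    (hZ : ∀ c ∈ center G, c ^ m = 1) : Tri p G := by
  obtain ⟨x, y, h1, h2, h3, h4⟩ := h
  obtain ⟨x, rfl⟩ := QuotientGroup.mk_surjective x
  obtain ⟨y, rfl⟩ := QuotientGroup.mk_surjective y
  have e : ⁅(x : G ⧸ center G), (y : G ⧸ center G)⁆ = (⁅x, y⁆ : G) :=
    (map_commutatorElement (QuotientGroup.mk' (center G)) x y).symm
  rw [e] at h1 h2 h3 h4
  have hc : Nat.Coprime p m := hp.out.coprime_iff_not_dvd.2 hm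
  have k2 : ⁅x, y⁆ ^ p ∈ center G := by rwa [← QuotientGroup.mk_pow, QuotientGroup.eq_one_iff] at h2
  have key : ∀ w : G, Commute ((⁅x, y⁆ : G) : G ⧸ center G) w → Commute ⁅x, y⁆ w := fun w hw => by
    have k1 : ⁅⁅x, y⁆, w⁆ ∈ center G := by
      rw [← QuotientGroup.eq_one_iff]
      exact (map_commutatorElement (QuotientGroup.mk' (center G)) _ w).trans
        (commutatorElement_eq_one_iff_commute.2 hw)
    have k3 := commutatorElement_pow_left (y := w) (show Commute _ ⁅x, y⁆ from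
      (mem_center_iff.1 k1 _).symm) p
    rw [commutatorElement_eq_one_iff_commute.2 (show Commute _ w from
      (mem_center_iff.1 k2 _).symm)] at k3
    rw [← commutatorElement_eq_one_iff_commute, ← orderOf_eq_one_iff]
    exact Nat.eq_one_of_dvd_coprimes hc (orderOf_dvd_of_pow_eq_one k3.symm)
      (orderOf_dvd_of_pow_eq_one (hZ _ k1))
  have k4 := commutatorElement_pow_left (key x h3) m
  refine ⟨x ^ m, y, ?_, ?_, ?_, ?_⟩ <;> rw [k4]
  · intro h
    apply h1
    rw [← orderOf_eq_one_iff]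
    exact Nat.eq_one_of_dvd_coprimes hc (orderOf_dvd_of_pow_eq_one h2)
      (orderOf_dvd_of_pow_eq_one (by rw [← QuotientGroup.mk_pow, h, QuotientGroup.mk_one]))
  · rw [← pow_mul, mul_comm, pow_mul, hZ _ k2]
  · exact (key x h3).pow_pow _ _
  · exact (key y h4).pow_left _

end Grp

section Rep

open Matrix Polynomial

variable {k ι : Type*} [Field k] [Fintype ι] [DecidableEq ι]

theorem mem_spec_iff {z : Matrix ι ι k} {a : k} : a ∈ spectrum k z ↔ (a • 1 - z).det = 0 := by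
  rw [spectrum.mem_iff, Matrix.isUnit_iff_isUnit_det, isUnit_iff_ne_zero, not_not,
    Algebra.algebraMap_eq_smul_one]

theorem map_mem_spec {z : Matrix ι ι k} {a : k} (φ : k →+* k) (h : a ∈ spectrum k z) :
    φ a ∈ spectrum k (z.map φ) := by
  rw [mem_spec_iff] at h ⊢
  have := congrArg φ h
  rw [RingHom.map_det, map_zero] at this
  rw [← this]
  congr 1
  ext i j
  simp [Matrix.one_apply, apply_ite φ]

theorem inv_mem_spec {z w J : Matrix ι ι k} {a : k} (ha : a ≠ 0) (hJ : J.det ≠ 0)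
    (e : wᵀ * J * z = J) (h : a ∈ spectrum k w) : a⁻¹ ∈ spectrum k z := by
  rw [mem_spec_iff] at h ⊢
  have h1 : wᵀ * J * (a⁻¹ • 1 - z) = (-a⁻¹) • ((a • 1 - w)ᵀ * J) := by
    rw [Matrix.mul_sub, e, transpose_sub, transpose_smul, transpose_one, Matrix.sub_mul, smul_sub]
    simp [smul_smul, inv_mul_cancel₀ ha]
    abel
  have h2 := congrArg Matrix.det h1
  rw [det_smul, det_mul (a • 1 - w)ᵀ, det_transpose, h, zero_mul, mul_zero, det_mul] at h2
  refine (mul_eq_zero.1 h2).resolve_left fun h3 => hJ ?_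
  rw [← e, det_mul, h3, zero_mul]

variable {p : ℕ} [hp : Fact p.Prime]

theorem le_finrank_eigenspace {x y : GL ι k} (hx : Commute ⁅x, y⁆ x) (hy : Commute ⁅x, y⁆ y)
    {a : k} (h1 : a ≠ 1) (h2 : a ^ p = 1) (h : a ∈ spectrum k (⁅x, y⁆ : GL ι k).1) :
    p ≤ Module.finrank k (Module.End.eigenspace (toLin' (⁅x, y⁆ : GL ι k).1) a) := by
  set z : GL ι k := ⁅x, y⁆ with hz
  set E := Module.End.eigenspace (toLin' z.1) a with hE
  have hm : ∀ w : GL ι k, Commute z w → ∀ v ∈ E, toLin' w.1 v ∈ E := fun w hw v hv => by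
    rw [hE, Module.End.mem_eigenspace_iff] at hv ⊢
    rw [← map_smul, ← hv, ← LinearMap.comp_apply, ← toLin'_mul, ← Units.val_mul, hw.eq,
      Units.val_mul, toLin'_mul, LinearMap.comp_apply]
  have hd : ∀ (w : GL ι k) (hw : Commute z w), LinearMap.det ((toLin' w.1).restrict (hm w hw)) ≠ 0 :=
    fun w hw => by
      have : (toLin' w.1).restrict (hm w hw) ∘ₗ (toLin' w⁻¹.1).restrict (hm _ hw.inv_right) =
          LinearMap.id := by
        ext v : 1
        refine Subtype.ext ?_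
        change toLin' w.1 (toLin' w⁻¹.1 v) = v
        rw [← LinearMap.comp_apply, ← toLin'_mul, Units.mul_inv, toLin'_one, LinearMap.id_apply]
      have := congrArg LinearMap.det this
      rw [LinearMap.det_comp, LinearMap.det_id] at this
      exact left_ne_zero_of_mul_eq_one this
  have h3 : (toLin' x.1).restrict (hm x hx) ∘ₗ (toLin' y.1).restrict (hm y hy) =
      a • ((toLin' y.1).restrict (hm y hy) ∘ₗ (toLin' x.1).restrict (hm x hx)) := by
    ext v : 1
    refine Subtype.ext ?_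
    change toLin' x.1 (toLin' y.1 v) = a • toLin' y.1 (toLin' x.1 v)
    rw [← Module.End.mem_eigenspace_iff.1 (hm y hy _ (hm x hx _ v.2))]
    simp only [← LinearMap.comp_apply, ← toLin'_mul, ← Units.val_mul]
    rw [hz, commutatorElement_def]
    congr 3
    group
  have h4 := congrArg LinearMap.det h3
  rw [LinearMap.det_smul, LinearMap.det_comp, LinearMap.det_comp, mul_comm (LinearMap.det _),
    eq_comm, mul_eq_right₀ (mul_ne_zero (hd y hy) (hd x hx))] at h4
  have h5 := orderOf_dvd_of_pow_eq_one h4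
  rw [orderOf_eq_prime h2 h1] at h5
  refine Nat.le_of_dvd (Nat.pos_of_ne_zero fun h0 => ?_) h5
  rw [← Matrix.spectrum_toLin', ← Module.End.hasEigenvalue_iff_mem_spectrum] at h
  exact h (Submodule.finrank_eq_zero.1 h0)

theorem exists_mem_spec [IsAlgClosed k] (hk : (p : k) ≠ 0) {z : Matrix ι ι k} (h1 : z ≠ 1)
    (h2 : z ^ p = 1) : ∃ a ∈ spectrum k z, a ≠ 1 ∧ a ^ p = 1 := by
  let Φ : k[X] := ∑ i ∈ Finset.range p, X ^ i
  have e1 : aeval z Φ * (z - 1) = 0 := by
    simp only [Φ, map_sum, map_pow, aeval_X]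
    rw [geom_sum_mul, h2, sub_self]
  have e2 : 0 ∈ spectrum k (aeval z Φ) := by
    rw [spectrum.zero_mem_iff]
    intro hu
    exact h1 (sub_eq_zero.1 (hu.mul_right_eq_zero.1 e1))
  have e3 : 0 < Φ.degree := by
    have : Φ = cyclotomic p k := (cyclotomic_prime k p).symm
    rw [this, degree_cyclotomic, Nat.totient_prime hp.out]
    have := hp.out.two_le
    exact_mod_cast (show 0 < p - 1 by omega)
  rw [spectrum.map_polynomial_aeval_of_degree_pos z Φ e3] at e2
  obtain ⟨a, ha, h3⟩ := e2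
  simp only [Φ, eval_finsetSum, eval_pow, eval_X] at h3
  refine ⟨a, ha, ?_, ?_⟩
  · rintro rfl
    simp [hk] at h3
  · rw [← sub_eq_zero, ← geom_sum_mul, h3, zero_mul]

theorem exists_sub [IsAlgClosed k] (hk : (p : k) ≠ 0) {x y : GL ι k} (h1 : ⁅x, y⁆ ≠ 1)
    (h2 : ⁅x, y⁆ ^ p = 1) (hx : Commute ⁅x, y⁆ x) (hy : Commute ⁅x, y⁆ y) :
    ∃ S : Subgroup (ZMod p)ˣ, p * Nat.card S ≤ Fintype.card ι ∧ ∀ (a : ℤ) (u : (ZMod p)ˣ),
      (u : ZMod p) = a → (∀ b : k, b ≠ 0 → b ∈ spectrum k (⁅x, y⁆ : GL ι k).1 →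
        b ^ a ∈ spectrum k (⁅x, y⁆ : GL ι k).1) → u ∈ S := by
  set z : GL ι k := ⁅x, y⁆ with hz
  have hpw : ∀ {b : k}, b ^ p = 1 → ∀ n, b ^ (n % p) = b ^ n := fun {b} hb n => by
    conv_rhs => rw [← Nat.mod_add_div n p, pow_add, pow_mul, hb, one_pow, mul_one]
  let M : Submonoid (ZMod p)ˣ :=
    { carrier := {u | ∀ b : k, b ^ p = 1 → b ∈ spectrum k z.1 →
        b ^ (u : ZMod p).val ∈ spectrum k z.1}
      one_mem' := fun b _ hb => by rwa [Units.val_one, ZMod.val_one, pow_one]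
      mul_mem' := fun {u v} hu hv b h hb => by
        rw [Units.val_mul, ZMod.val_mul, hpw h, pow_mul]
        exact hv _ (by rw [← pow_mul, mul_comm, pow_mul, h, one_pow]) (hu b h hb) }
  let S : Subgroup (ZMod p)ˣ :=
    { M with
      inv_mem' := fun {u} hu => by
        have : u⁻¹ = u ^ (orderOf u - 1) := by
          rw [inv_eq_iff_mul_eq_one, ← pow_succ', Nat.sub_add_cancel (orderOf_pos u),
            pow_orderOf_eq_one]
        rw [this]
        exact M.pow_mem hu _ }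
  refine ⟨S, ?_, fun a u hu h b hb hb' => ?_⟩
  · obtain ⟨a, ha, k1, k2⟩ := exists_mem_spec hk (z := z.1) (fun h => h1 (Units.ext h))
      (by rw [← Units.val_pow_eq_pow_val, h2, Units.val_one])
    have ho := orderOf_eq_prime k2 k1
    have hinj : Function.Injective fun u : S => a ^ ((u : (ZMod p)ˣ) : ZMod p).val := fun u v h =>
      Subtype.ext (Units.ext (ZMod.val_injective _ (pow_injOn_Iio_orderOf
        (by rw [ho]; exact ZMod.val_lt _) (by rw [ho]; exact ZMod.val_lt _) h)))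
    have hind := (Module.End.eigenspaces_iSupIndep (toLin' z.1)).comp hinj
    have := Fintype.ofFinite S
    have h3 := Module.finrank_directSum k (ι := S) fun u =>
      Module.End.eigenspace (toLin' z.1) (a ^ ((u : (ZMod p)ˣ) : ZMod p).val)
    have h4 := LinearMap.finrank_le_finrank_of_injective
      (f := DirectSum.coeLinearMap fun u : S =>
        Module.End.eigenspace (toLin' z.1) (a ^ ((u : (ZMod p)ˣ) : ZMod p).val))
      hind.dfinsupp_lsum_injective
    rw [h3, Module.finrank_fintype_fun_eq_card] at h4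
    refine le_trans ?_ h4
    rw [Nat.card_eq_fintype_card, mul_comm, ← smul_eq_mul, ← Finset.card_univ]
    refine Finset.card_nsmul_le_sum _ _ _ fun u _ => le_finrank_eigenspace hx hy (fun h => ?_)
      (by rw [← pow_mul, mul_comm, pow_mul, k2, one_pow]) (u.2 a k2 ha)
    have h5 := orderOf_dvd_of_pow_eq_one h
    rw [ho, ← ZMod.natCast_eq_zero_iff, ZMod.natCast_zmod_val] at h5
    exact (u : (ZMod p)ˣ).ne_zero h5
  · have h0 : b ≠ 0 := by
      rintro rfl
      simp [hp.out.ne_zero] at hb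
    have h3 : (p : ℤ) ∣ ((u : ZMod p).val : ℤ) - a := by
      rw [← ZMod.intCast_zmod_eq_zero_iff_dvd]
      push_cast
      rw [ZMod.natCast_zmod_val, hu, sub_self]
    obtain ⟨c, hc⟩ := h3
    rw [← _root_.zpow_natCast, eq_add_of_sub_eq hc, zpow_add₀ h0, _root_.zpow_mul,
      _root_.zpow_natCast, hb, _root_.one_zpow, one_mul]
    exact h b h0 hb'

/-- Eigenvalues of commutators are closed under the `a`-th power map. -/
def Cl {H : Type*} [Group H] (ρ : H →* GL ι k) (a : ℤ) : Prop :=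
  ∀ g : H, ∀ b : k, b ≠ 0 → b ∈ spectrum k (ρ g).1 → b ^ a ∈ spectrum k (ρ g).1

theorem Tri.exists_sub' [IsAlgClosed k] (hk : (p : k) ≠ 0) {H : Type*} [Group H] (h : Tri p H)
    (ρ : H →* GL ι k) (hρ : Function.Injective ρ) :
    ∃ S : Subgroup (ZMod p)ˣ, p * Nat.card S ≤ Fintype.card ι ∧ ∀ (a : ℤ) (u : (ZMod p)ˣ),
      (u : ZMod p) = a → Cl ρ a → u ∈ S := by
  obtain ⟨x, y, h1, h2, h3, h4⟩ := h
  obtain ⟨S, k1, k2⟩ := exists_sub hk (x := ρ x) (y := ρ y)
    (by rw [← map_commutatorElement]; exact fun h => h1 (hρ (h.trans (map_one ρ).symm)))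
    (by rw [← map_commutatorElement, ← map_pow, h2, map_one])
    (by rw [← map_commutatorElement]; exact h3.map ρ)
    (by rw [← map_commutatorElement]; exact h4.map ρ)
  exact ⟨S, k1, fun a u hu h => k2 a u hu (by rw [← map_commutatorElement]; exact h _)⟩

theorem dvd_pow_card {S : Subgroup (ZMod p)ˣ} {a : ℤ} {u : (ZMod p)ˣ} (hu : (u : ZMod p) = a)
    (h : u ∈ S) : (p : ℤ) ∣ a ^ Nat.card S - 1 := by
  rw [← ZMod.intCast_zmod_eq_zero_iff_dvd]
  push_cast
  rw [← hu, ← Units.val_pow_eq_pow_val,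
    show u ^ Nat.card S = 1 from congrArg Subtype.val (pow_card_eq_one' (x := (⟨u, h⟩ : S))),
    Units.val_one, sub_self]

theorem Tri.lin [IsAlgClosed k] (hk : (p : k) ≠ 0) {H : Type*} [Group H] (h : Tri p H)
    (ρ : H →* GL ι k) (hρ : Function.Injective ρ) {a : ℤ} (ha : ¬ (p : ℤ) ∣ a) (h1 : Cl ρ a) :
    ∃ e, 1 ≤ e ∧ p * e ≤ Fintype.card ι ∧ (p : ℤ) ∣ a ^ e - 1 := by
  obtain ⟨S, k1, k2⟩ := h.exists_sub' hk ρ hρ
  rw [← ZMod.intCast_zmod_eq_zero_iff_dvd] at ha
  exact ⟨_, Nat.card_pos, k1, dvd_pow_card rfl (k2 a (Units.mk0 _ ha) rfl h1)⟩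

theorem Tri.sym [IsAlgClosed k] (hk : (p : k) ≠ 0) (h2 : p ≠ 2) {H : Type*} [Group H] (h : Tri p H)
    (ρ : H →* GL ι k) (hρ : Function.Injective ρ) {a : ℤ} (ha : ¬ (p : ℤ) ∣ a) (h1 : Cl ρ a)
    (h3 : Cl ρ (-1)) :
    ∃ e, 1 ≤ e ∧ 2 * (p * e) ≤ Fintype.card ι ∧ (p : ℤ) ∣ (a ^ 2) ^ e - 1 := by
  obtain ⟨S, k1, k2⟩ := h.exists_sub' hk ρ hρ
  rw [← ZMod.intCast_zmod_eq_zero_iff_dvd] at ha
  have k3 := dvd_pow_card rfl (k2 a (Units.mk0 _ ha) rfl h1)
  have k4 := dvd_pow_card (a := -1) (by simp) (k2 (-1) (-1) (by simp) h3)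
  have k5 := Nat.card_pos (α := S)
  obtain ⟨e, he | he⟩ := Nat.even_or_odd' (Nat.card S)
  · rw [he] at k1 k3 k5
    exact ⟨e, by omega, by rwa [mul_left_comm], by rwa [← pow_mul]⟩
  · rw [he, pow_succ, pow_mul, neg_one_sq, one_pow, show (1 : ℤ) * -1 - 1 = -(2 : ℕ) by norm_num,
      Int.dvd_neg, Int.natCast_dvd_natCast] at k4
    exact absurd ((Nat.prime_dvd_prime_iff_eq hp.out Nat.prime_two).1 k4) h2

end Rep

section Arith

variable {p : ℕ} [hp : Fact p.Prime]

theorem dvd_pow_mul {Q : ℤ} {e : ℕ} (h : (p : ℤ) ∣ Q ^ e - 1) (j : ℕ) :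
    (p : ℤ) ∣ Q ^ (e * j) - 1 := by
  refine h.trans ?_
  simpa [pow_mul] using sub_dvd_pow_sub_pow (Q ^ e) 1 j

theorem sq_dvd_pow_mul {Q : ℤ} {e : ℕ} (h : (p : ℤ) ∣ Q ^ e - 1) :
    (p : ℤ) ^ 2 ∣ Q ^ (e * p) - 1 := by
  have := dvd_sub_pow_of_dvd_sub h 1
  simpa [pow_mul] using this

theorem dvd_prod_three {f : ℕ → ℤ} {s : Finset ℕ} {a b c : ℕ} (ha : a ∈ s) (hb : b ∈ s)
    (hc : c ∈ s) (h1 : a ≠ b) (h2 : a ≠ c) (h3 : b ≠ c) : f a * f b * f c ∣ ∏ i ∈ s, f i := by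
  have := Finset.prod_dvd_prod_of_subset {a, b, c} s f (by
    intro i hi
    simp only [Finset.mem_insert, Finset.mem_singleton] at hi
    rcases hi with rfl | rfl | rfl <;> assumption)
  rwa [Finset.prod_insert (by simp [h1, h2]), Finset.prod_insert (by simp [h3]),
    Finset.prod_singleton, ← mul_assoc] at this

theorem three_le (h2 : p ≠ 2) : 3 ≤ p := by have := hp.out.two_le; omega

theorem four_dvd_prod (h2 : p ≠ 2) {Q : ℤ} {e n : ℕ} (he : 1 ≤ e) (hn : p * e ≤ n)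
    (h : (p : ℤ) ∣ Q ^ e - 1) : (p : ℤ) ^ 4 ∣ ∏ i ∈ Finset.range n, (Q ^ (i + 1) - 1) := by
  have h3 := three_le h2
  have h4 : 3 * e ≤ p * e := Nat.mul_le_mul_right _ h3
  refine Dvd.dvd.trans ?_ (dvd_prod_three (a := e - 1) (b := e * 2 - 1) (c := e * p - 1)
    (by simp; omega) (by simp; omega) (by rw [mul_comm]; simp; omega) (by omega)
    (by rw [mul_comm]; omega) (by rw [mul_comm e p]; omega))
  rw [Nat.sub_add_cancel he, Nat.sub_add_cancel (by omega),
    Nat.sub_add_cancel (by rw [mul_comm]; omega), show (p : ℤ) ^ 4 = p * p * p ^ 2 by ring]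
  exact mul_dvd_mul (mul_dvd_mul h (dvd_pow_mul h 2)) (sq_dvd_pow_mul h)

end Arith

end Cfsg.Agent.XP
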