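import Mathlib
import Cfsg.Agent.XP.Basic
import Cfsg.Agent.UL.Orders
import Cfsg.Agent.Class.Orth.POrder
import Cfsg.Agent.Class.Spec.Model
import Cfsg.Agent.S0279

/-!
Classical groups have no non-abelian Sylow subgroup of order `p ^ 3` in cross characteristic.
-/

set_option autoImplicit false
set_option linter.unusedSectionVars false

namespace Cfsg.Agent.XP

open Subgroup Cfsg Matrix Finset

theorem three_dvd {q : ℕ} (hq : ¬ 3 ∣ q) : (3 : ℤ) ∣ (q : ℤ) ^ 2 - 1 := by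
  refine (ZMod.intCast_zmod_eq_zero_iff_dvd _ 3).1 ?_
  rw [← ZMod.natCast_eq_zero_iff] at hq
  push_cast
  generalize (q : ZMod 3) = a at hq
  revert a
  decide

variable {p : ℕ} [hp : Fact p.Prime]

section Arith

theorem prime_int : Prime (p : ℤ) := Nat.prime_iff_prime_int.1 hp.out

theorem pow_dvd_prod {Q : ℤ} {e n j : ℕ} (he : 1 ≤ e) (hn : e * j ≤ n) (h : (p : ℤ) ∣ Q ^ e - 1) :
    (p : ℤ) ^ j ∣ ∏ i ∈ range n, (Q ^ (i + 1) - 1) := by
  induction j generalizing n with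
  | zero => simp
  | succ j ih =>
    have h1 : e * j + e ≤ n := hn
    refine Dvd.dvd.trans ?_ (prod_dvd_prod_of_subset (range (e * j + e - 1 + 1)) _ _
      (range_subset_range.2 (by omega)))
    rw [prod_range_succ, pow_succ, Nat.sub_add_cancel (by omega)]
    exact mul_dvd_mul (ih (by omega)) (dvd_pow_mul h (j + 1))

theorem not_sq {g c w A : ℤ} (h3 : (p : ℤ) ^ 3 ∣ g) (h4 : ¬ (p : ℤ) ^ 4 ∣ g) (hc : ¬ (p : ℤ) ∣ c)
    (hw : ¬ (p : ℤ) ∣ w) (h : c * g = w * A ^ 2) : False := by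
  have h1 : (p : ℤ) ^ 3 ∣ A ^ 2 :=
    prime_int.pow_dvd_of_dvd_mul_left 3 hw (h ▸ h3.mul_left c)
  obtain ⟨B, rfl⟩ := prime_int.dvd_of_dvd_pow ((dvd_pow_self _ three_ne_zero).trans h1)
  rw [mul_pow, pow_succ, mul_dvd_mul_iff_left (pow_ne_zero _ prime_int.ne_zero)] at h1
  obtain ⟨C, rfl⟩ := prime_int.dvd_of_dvd_pow h1
  exact h4 (prime_int.pow_dvd_of_dvd_mul_left 4 hc ⟨w * C ^ 2, by rw [h]; ring⟩)

theorem lin_arith (h2 : p ≠ 2) {Q g u : ℤ} {n : ℕ} (hu : ¬ (p : ℤ) ∣ u) (hQ : Q - 1 ≠ 0)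
    (hn : 2 ≤ n) (h : (Nat.gcd n (Q - 1).natAbs : ℤ) * ((Q - 1) * g) =
      u * ∏ i ∈ range n, (Q ^ (i + 1) - 1))
    (h3 : (p : ℤ) ^ 3 ∣ g) (h4 : ¬ (p : ℤ) ^ 4 ∣ g)
    (hR : ¬ p ∣ Nat.gcd n (Q - 1).natAbs → ∃ e, 1 ≤ e ∧ p * e ≤ n ∧ (p : ℤ) ∣ Q ^ e - 1) :
    False := by
  set c := Nat.gcd n (Q - 1).natAbs with hc
  have hp3 := three_le h2
  obtain ⟨n, rfl⟩ := Nat.exists_eq_add_of_le' hn
  have h' := h
  rw [prod_range_succ', zero_add, pow_one, mul_left_comm, ← mul_assoc u, mul_comm (Q - 1),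
    mul_left_inj' hQ] at h'
  have hd : (p : ℤ) ∣ Q - 1 → ∀ j, (p : ℤ) ∣ Q ^ j - 1 := fun h j => by
    simpa using dvd_pow_mul (e := 1) (by simpa using h) j
  by_cases hpc : p ∣ c
  · have k1 : p ∣ n + 2 := hpc.trans (Nat.gcd_dvd_left _ _)
    have k2 : (p : ℤ) ∣ Q - 1 := Int.natCast_dvd.2 (hpc.trans (Nat.gcd_dvd_right _ _))
    have k3 : (c : ℤ) ∣ ∑ i ∈ range (n + 2), Q ^ i := by
      have k4 : (c : ℤ) ∣ Q - 1 := Int.natCast_dvd.2 (Nat.gcd_dvd_right _ _)
      have k5 : ∑ i ∈ range (n + 2), Q ^ i = ∑ i ∈ range (n + 2), (Q ^ i - 1) + (n + 2 : ℕ) := by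
        simp
      rw [k5]
      exact dvd_add (dvd_sum fun i _ => k4.trans (by simpa using sub_dvd_pow_sub_pow Q 1 i))
        (Int.natCast_dvd_natCast.2 (Nat.gcd_dvd_left _ _))
    obtain ⟨t, ht⟩ := k3
    have k6 : (c : ℤ) ≠ 0 := by
      rw [hc]; exact_mod_cast (Nat.gcd_pos_of_pos_left _ (by omega)).ne'
    rw [prod_range_succ, ← geom_sum_mul Q (n + 1 + 1), ht] at h'
    have k7 : g = u * (∏ i ∈ range n, (Q ^ (i + 1 + 1) - 1)) * t * (Q - 1) :=
      mul_left_cancel₀ k6 (by rw [h']; ring)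
    by_cases k8 : 3 ≤ n
    · refine h4 (k7 ▸ ?_)
      rw [pow_succ]
      refine mul_dvd_mul (Dvd.dvd.mul_right (Dvd.dvd.mul_left ?_ _) _) k2
      refine Dvd.dvd.trans ?_ (dvd_prod_three (a := 0) (b := 1) (c := 2) (by simp; omega)
        (by simp; omega) (by simp; omega) (by omega) (by omega) (by omega))
      rw [pow_succ, pow_two]
      exact mul_dvd_mul (mul_dvd_mul (hd k2 _) (hd k2 _)) (hd k2 _)
    · have k9 := Nat.le_of_dvd (by omega) k1
      have k10 : p = 3 ∧ n = 1 := by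
        have : p ≠ 4 := by rintro rfl; exact absurd hp.out (by decide)
        have : p = 3 := by omega
        subst this
        omega
      obtain ⟨rfl, rfl⟩ := k10
      obtain ⟨s, hs⟩ := k2
      have k11 : c = 3 := Nat.dvd_antisymm (Nat.gcd_dvd_left _ _) hpc
      rw [k11] at ht
      simp only [sum_range_succ, range_zero, sum_empty, prod_range_succ, prod_empty] at ht k7
      have k12 : t = 3 * (s ^ 2 + s) + 1 := by
        rw [eq_add_of_sub_eq hs] at ht
        push_cast at ht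
        linarith
      refine not_sq h3 h4 prime_int.not_dvd_one (w := u * ((Q + 1) * t)) (A := Q - 1) ?_
        (by rw [k7]; ring)
      rw [prime_int.dvd_mul, prime_int.dvd_mul]
      push_cast at hs hu ⊢
      omega
  · obtain ⟨e, he, k1, k2⟩ := hR hpc
    have k3 : ¬ (p : ℤ) ∣ c := by rwa [Int.natCast_dvd_natCast]
    by_cases k4 : (p : ℤ) ∣ Q - 1
    · have k5 : ¬ p ∣ n + 2 := fun h => hpc (Nat.dvd_gcd h (Int.natCast_dvd.1 k4))
      have k6 : p ≤ n + 1 := by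
        have : p ≤ p * e := Nat.le_mul_of_pos_right _ he
        have : p ≠ n + 2 := by rintro rfl; exact k5 dvd_rfl
        omega
      refine h4 (prime_int.pow_dvd_of_dvd_mul_left 4 k3 (h' ▸ Dvd.dvd.mul_left ?_ _))
      refine Dvd.dvd.trans ?_ (dvd_prod_three (a := 0) (b := p - 1) (c := p - 2) (by simp)
        (by simp; omega) (by simp; omega) (by omega) (by omega) (by omega))
      rw [show (p : ℤ) ^ 4 = p * p * p ^ 2 by ring, show p - 2 + 1 + 1 = 1 * p by omega]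
      exact mul_dvd_mul (mul_dvd_mul (hd k4 _) (hd k4 _)) (sq_dvd_pow_mul (by simpa using k4))
    · exact h4 (prime_int.pow_dvd_of_dvd_mul_left 4 k4 (prime_int.pow_dvd_of_dvd_mul_left 4 k3
        (h ▸ (four_dvd_prod h2 he k1 k2).mul_left _)))

theorem not_dvd_of_dvd_four (h2 : p ≠ 2) {c : ℕ} (hc : c ∣ 4) : ¬ p ∣ c := fun h =>
  h2 ((Nat.prime_dvd_prime_iff_eq hp.out Nat.prime_two).1
    (hp.out.dvd_of_dvd_pow (show p ∣ 2 ^ 2 from h.trans hc)))

theorem cast_prod_even {q : ℕ} (hq : 1 ≤ q) (m : ℕ) :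
    ((∏ i ∈ range m, (q ^ (2 * (i + 1)) - 1) : ℕ) : ℤ) =
      ∏ i ∈ range m, (((q : ℤ) ^ 2) ^ (i + 1) - 1) := by
  rw [Nat.cast_prod]
  refine prod_congr rfl fun i _ => ?_
  rw [Nat.cast_sub (Nat.one_le_pow _ _ hq), ← pow_mul]
  simp

theorem four_dvd_even (h2 : p ≠ 2) {q m e : ℕ} (hq : 1 ≤ q) (he : 1 ≤ e) (hm : p * e ≤ m)
    (h : (p : ℤ) ∣ ((q : ℤ) ^ 2) ^ e - 1) : p ^ 4 ∣ ∏ i ∈ range m, (q ^ (2 * (i + 1)) - 1) := by
  rw [← Int.natCast_dvd_natCast, cast_prod_even hq, Nat.cast_pow]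
  exact four_dvd_prod h2 he hm h

theorem four_dvd_even' (h2 : p ≠ 2) {q m e : ℕ} (hq : ¬ p ∣ q) (he : 1 ≤ e) (hm : p * e ≤ m + 1)
    (h3 : 3 ≤ m) (h : (p : ℤ) ∣ ((q : ℤ) ^ 2) ^ e - 1) :
    p ^ 4 ∣ ∏ i ∈ range m, (q ^ (2 * (i + 1)) - 1) := by
  have hq1 : 1 ≤ q := Nat.pos_of_ne_zero fun h => hq (h ▸ dvd_zero p)
  by_cases k : p = 3
  · subst k
    exact four_dvd_even h2 hq1 le_rfl h3 (by simpa using three_dvd hq)
  · have := three_le h2
    have : p ≠ 4 := by rintro rfl; exact absurd hp.out (by decide)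
    have : 5 * e ≤ p * e := Nat.mul_le_mul_right _ (by omega)
    rw [← Int.natCast_dvd_natCast, cast_prod_even hq1, Nat.cast_pow]
    exact pow_dvd_prod he (by omega) h

end Arith

theorem H3.dvd' {G : Type*} [Group G] [Finite G] (h : H3 p G) : (p : ℤ) ^ 3 ∣ Nat.card G := by
  exact_mod_cast h.dvd

theorem H3.not_dvd' {G : Type*} [Group G] [Finite G] (h : H3 p G) :
    ¬ (p : ℤ) ^ 4 ∣ Nat.card G := by
  exact_mod_cast h.not_dvd

variable {F : Type*} [Field F] [Fintype F]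

section Ext

variable {ι H : Type*} [Fintype ι] [DecidableEq ι] [Group H]

/-- Extension of scalars to the algebraic closure. -/
noncomputable def ext (ρ : H →* GL ι F) : H →* GL ι (AlgebraicClosure F) :=
  (Matrix.GeneralLinearGroup.map (algebraMap F (AlgebraicClosure F))).comp ρ

theorem coe_ext (ρ : H →* GL ι F) (g : H) :
    (ext ρ g).1 = (ρ g).1.map (algebraMap F (AlgebraicClosure F)) := rfl

theorem ext_injective {ρ : H →* GL ι F} (h : Function.Injective ρ) : Function.Injective (ext ρ) :=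
  fun _ _ e => h (Units.ext (Matrix.map_injective (algebraMap F (AlgebraicClosure F)).injective
    (congrArg Units.val e)))

theorem cast_ne_zero (h : ¬ p ∣ Fintype.card F) : (p : AlgebraicClosure F) ≠ 0 := fun h0 => by
  rw [← map_natCast (algebraMap F _), map_eq_zero] at h0
  exact h (prime_dvd_char_iff_dvd_card p |>.1 ((ringChar.spec F p).1 h0 |> fun h1 => by
    rw [(Nat.prime_dvd_prime_iff_eq (CharP.char_is_prime F (ringChar F)) hp.out).1 h1]))

theorem cl_card (ρ : H →* GL ι F) : Cl (ext ρ) (Fintype.card F) := fun g b _ hb => by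
  have := map_mem_spec (FiniteField.frobeniusAlgHom F (AlgebraicClosure F)).toRingHom hb
  rw [coe_ext, Matrix.map_map] at this
  rw [zpow_natCast, coe_ext]
  convert this using 3
  · funext a
    exact ((FiniteField.frobeniusAlgHom F (AlgebraicClosure F)).commutes a).symm
  · simp

theorem cl_neg (ρ : H →* GL ι F) {J : Matrix ι ι F} (hJ : J.det ≠ 0)
    (h : ∀ g, (ρ g).1ᵀ * J * (ρ g).1 = J) : Cl (ext ρ) (-1) := fun g b h0 hb => by
  rw [_root_.zpow_neg_one]
  refine inv_mem_spec h0 (J := J.map (algebraMap F _)) ?_ ?_ hb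
  · rwa [← RingHom.mapMatrix_apply, ← RingHom.map_det, map_ne_zero]
  · rw [coe_ext, ← Matrix.transpose_map, ← Matrix.map_mul, ← Matrix.map_mul, h]

theorem Tri.sym' (h2 : p ≠ 2) (hq : ¬ p ∣ Fintype.card F) (h : Tri p H) (ρ : H →* GL ι F)
    (hρ : Function.Injective ρ) {J : Matrix ι ι F} (hJ : J.det ≠ 0)
    (h1 : ∀ g, (ρ g).1ᵀ * J * (ρ g).1 = J) : ∃ e, 1 ≤ e ∧ 2 * (p * e) ≤ Fintype.card ι ∧
      (p : ℤ) ∣ ((Fintype.card F : ℤ) ^ 2) ^ e - 1 :=
  h.sym (cast_ne_zero hq) h2 (ext ρ) (ext_injective hρ) (by rwa [Int.natCast_dvd_natCast])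
    (cl_card ρ) (cl_neg ρ hJ h1)

end Ext

theorem not_PSL (h2 : p ≠ 2) (hq : ¬ p ∣ Fintype.card F) {n : ℕ} (hn : 2 ≤ n) :
    ¬ H3 p (Matrix.ProjectiveSpecialLinearGroup (Fin n) F) := fun h => by
  have hq2 : 2 ≤ Fintype.card F := Fintype.one_lt_card
  have h1 := S0243.result (F := F) rfl n hn
  have e : ((Fintype.card F : ℤ) - 1).natAbs = Fintype.card F - 1 := by omega
  rw [UL.prod_gl] at h1
  refine lin_arith h2 (Q := Fintype.card F) (u := (Fintype.card F : ℤ) ^ ∑ i ∈ range n, i)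
    (fun h => hq (Int.natCast_dvd_natCast.1 (prime_int.dvd_of_dvd_pow h))) (by omega) hn ?_
    h.dvd' h.not_dvd' fun hc => ?_
  · rw [e]
    zify [fun i => Nat.one_le_pow i _ (show 0 < Fintype.card F by omega),
      show 1 ≤ Fintype.card F by omega] at h1
    exact_mod_cast h1
  · have : Nonempty (Fin n) := ⟨⟨0, by omega⟩⟩
    have h3 := (h.tri.lift (m := Nat.card (center (SpecialLinearGroup (Fin n) F))) (by
      rwa [Class.card_center_SL, Fintype.card_fin, Nat.card_eq_fintype_card, ← e]) fun c hc =>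
      congrArg Subtype.val (pow_card_eq_one' (x := (⟨c, hc⟩ : center _)))).lin (cast_ne_zero hq)
      _ (ext_injective SpecialLinearGroup.toGL_injective) (by rwa [Int.natCast_dvd_natCast])
      (cl_card _)
    rwa [Fintype.card_fin] at h3

theorem not_PSU (h2 : p ≠ 2) {q : ℕ} (hF : Fintype.card F = q ^ 2) (hq : ¬ p ∣ q) {n : ℕ}
    (hn : 3 ≤ n) : ¬ H3 p (PSU n F q) := fun h => by
  have := Class.U.UF.of_card hF
  have hq2 : 2 ≤ q := Class.U.two_le_q F q
  have h1 := S0280.result hF n (by omega)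
  have e : (-(q : ℤ) - 1).natAbs = q + 1 := by omega
  have e2 : ((∏ i ∈ range n, (if Even i then q ^ (i + 1) + 1 else q ^ (i + 1) - 1) : ℕ) : ℤ) =
      (∏ i ∈ range n, (-1) ^ (i + 1)) * ∏ i ∈ range n, ((-(q : ℤ)) ^ (i + 1) - 1) := by
    rw [Nat.cast_prod, ← prod_mul_distrib]
    refine prod_congr rfl fun i _ => ?_
    split_ifs with hi
    · rw [hi.add_one.neg_pow, hi.add_one.neg_pow]; push_cast; ring
    · rw [(Nat.even_add_one.2 hi).neg_pow, (Nat.even_add_one.2 hi).neg_pow,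
        Nat.cast_sub (Nat.one_le_pow _ _ (by omega))]
      push_cast; ring
  refine lin_arith h2 (Q := -q) (n := n)
    (u := -(q : ℤ) ^ (n * (n - 1) / 2) * ∏ i ∈ range n, (-1) ^ (i + 1)) ?_ (by omega) (by omega) ?_
    h.dvd' h.not_dvd' fun hc => ?_
  · rw [prime_int.dvd_mul, Int.dvd_neg, prime_int.dvd_finsetProd_iff]
    rintro (h | ⟨i, -, h⟩)
    · exact hq (Int.natCast_dvd_natCast.1 (prime_int.dvd_of_dvd_pow h))
    · exact prime_int.not_dvd_one (Int.dvd_neg.1 (prime_int.dvd_of_dvd_pow h))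
  · have h3 := congrArg (Nat.cast : ℕ → ℤ) h1
    rw [Nat.cast_mul (q ^ _), e2] at h3
    rw [e]
    push_cast at h3 ⊢
    linear_combination -h3
  · obtain ⟨τ, k1, k2⟩ := Class.Spec.exists_hom_of_UF (F := F) (K := AlgebraicClosure F) q
    have h3 := (h.tri.lift (m := Nat.card (center (SU n F q))) (by
      rwa [S0279.result hF n hn, ← e]) fun c hc =>
      congrArg Subtype.val (pow_card_eq_one' (x := (⟨c, hc⟩ : center _)))).lin
      (cast_ne_zero (F := F) fun h => hq (hp.out.dvd_of_dvd_pow (hF ▸ h)))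
      (ext (SpecialLinearGroup.toGL.comp (SU n F q).subtype))
      (ext_injective (SpecialLinearGroup.toGL_injective.comp Subtype.val_injective)) (a := -q)
      (by rwa [Int.dvd_neg, Int.natCast_dvd_natCast]) fun g b h0 hb => by
        rw [_root_.zpow_neg, _root_.zpow_natCast, ← k2]
        refine inv_mem_spec ((map_ne_zero τ).2 h0) (J := 1) (by simp) ?_ (map_mem_spec τ hb)
        have k3 := congrArg (fun M => (Mᵀ).map (algebraMap F (AlgebraicClosure F)))
          (Class.U.pres_iff.1 g.2)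
        simp only [transpose_mul, transpose_transpose, Matrix.map_mul, transpose_one,
          Matrix.map_one _ (map_zero _) (map_one _), Matrix.transpose_map, Matrix.map_map] at k3
        rw [Matrix.mul_one, coe_ext, Matrix.map_map, ← k3]
        congr 3
        funext a
        exact k1 a
    rwa [Fintype.card_fin] at h3

theorem not_PSp (h2 : p ≠ 2) (hq : ¬ p ∣ Fintype.card F) {m : ℕ} (hm : 1 ≤ m) :
    ¬ H3 p (PSp m F) := fun h => by
  have h1 := S0246.result (F := F) rfl m hm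
  have hc : ¬ p ∣ Nat.card (center (symplecticGroup (Fin m) F)) :=
    not_dvd_of_dvd_four h2 (h1 ▸ (Nat.gcd_dvd_left _ _).trans (by norm_num))
  obtain ⟨e, he, k1, k2⟩ := (h.tri.lift hc fun c hc =>
    congrArg Subtype.val (pow_card_eq_one' (x := (⟨c, hc⟩ : center _)))).sym' h2 hq
    (symplecticGroup (Fin m) F).subtype.toHomUnits
    (fun _ _ e => Subtype.ext (congrArg Units.val e)) (J := Matrix.J (Fin m) F)
    (isUnit_det_J _ _).ne_zero fun g => SymplecticGroup.mem_iff'.1 g.2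
  simp only [Fintype.card_sum, Fintype.card_fin] at k1
  refine h.not_dvd_mul hc ?_
  rw [mul_comm, ← card_eq_card_quotient_mul_card_subgroup, S0245.result rfl]
  exact (four_dvd_even h2 Fintype.card_pos he (by omega) k2).mul_left _

open Class.Orth in
theorem orth_bound {ι : Type} [Fintype ι] [DecidableEq ι] (h2 : p ≠ 2) (hq : ¬ p ∣ Fintype.card F)
    (Q : QuadraticForm F (ι → F)) {f : (ι → F) → F} (hf : ∀ v, Q v = f v) (hQ : ND Q)
    (h5 : 5 ≤ Fintype.card ι) (h : Tri p (POmega F f)) :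
    ∃ e, 1 ≤ e ∧ 2 * (p * e) ≤ Fintype.card ι ∧ (p : ℤ) ∣ ((Fintype.card F : ℤ) ^ 2) ^ e - 1 := by
  let e := commutatorCongr (isoEquiv Q f hf)
  refine (h.lift (m := 2) (not_dvd_of_dvd_four h2 (by norm_num)) fun c hc => ?_).sym' h2 hq
    ((isometryGroup F f).subtype.comp (Omega F f).subtype)
    (Subtype.val_injective.comp Subtype.val_injective)
    (J := LinearMap.BilinForm.toMatrix' (QuadraticMap.polarBilin Q)) ?_ fun g => ?_
  · apply e.injective
    have k1 : e c ∈ center _ := map_center_equiv e ▸ mem_map_of_mem _ hc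
    rw [map_pow, map_one]
    refine Subtype.ext ?_
    rcases (hQ.mem_center_Omega (by simpa using h5) _).1 k1 with k | k
    · rw [SubgroupClass.coe_pow, k, one_pow]; rfl
    · rw [SubgroupClass.coe_pow, k]
      exact OG.ext fun v => by rw [pow_two]; exact neg_neg v
  · exact (LinearMap.BilinForm.nondegenerate_toMatrix'_iff.2 ((nd_iff Q).1 hQ)).det_ne_zero
  · have k1 := LinearMap.BilinForm.toMatrix'_comp (QuadraticMap.polarBilin Q)
      (Matrix.toLin' g.1.1.1) (Matrix.toLin' g.1.1.1)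
    rw [LinearMap.toMatrix'_toLin'] at k1
    refine k1.symm.trans (congrArg _ (LinearMap.ext₂ fun u v => ?_))
    exact OG.map_polar (isoEquiv Q f hf g.1) u v

theorem not_POmegaOdd (h2 : p ≠ 2) (hq : ¬ p ∣ Fintype.card F) (ho : Odd (Fintype.card F)) {m : ℕ}
    (hm : 3 ≤ m) : ¬ H3 p (POmega F (quadFormOdd m F)) := fun h => by
  obtain ⟨e, he, k1, k2⟩ := orth_bound h2 hq _ (Class.Orth.oddQF_apply m F)
    (Class.Orth.nd_oddQF m F (Class.Orth.two_ne_zero_of_odd_card ho)) (by simp; omega) h.tri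
  simp only [Fintype.card_sum, Fintype.card_fin, Fintype.card_unit] at k1
  refine h.not_dvd_mul (c := 2) (not_dvd_of_dvd_four h2 (by norm_num)) ?_
  rw [S0292.result rfl ho m hm]
  exact (four_dvd_even h2 Fintype.card_pos he (by omega) k2).mul_left _

theorem not_POmegaPlus (h2 : p ≠ 2) (hq : ¬ p ∣ Fintype.card F) {m : ℕ}
    (hm : 4 ≤ m) : ¬ H3 p (POmega F (quadFormPlus m F)) := fun h => by
  obtain ⟨e, he, k1, k2⟩ := orth_bound h2 hq _ (Class.Orth.plusQF_apply m F)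
    (Class.Orth.nd_plusQF m F) (by simp; omega) h.tri
  simp only [Fintype.card_sum, Fintype.card_fin] at k1
  refine h.not_dvd_mul (not_dvd_of_dvd_four h2 (Nat.gcd_dvd_left 4 (Fintype.card F ^ m - 1))) ?_
  rw [S0293.result rfl m hm]
  exact (four_dvd_even' h2 hq he (by omega) (by omega) k2).mul_left _

theorem not_POmegaMinus (h2 : p ≠ 2) (hq : ¬ p ∣ Fintype.card F) {m : ℕ} (hm : 4 ≤ m) {a b : F}
    (hab : ∀ z₁ z₂ : F, z₁ ^ 2 + a * z₁ * z₂ + b * z₂ ^ 2 = 0 → z₁ = 0 ∧ z₂ = 0) :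
    ¬ H3 p (POmega F (quadFormMinus (m - 1) F a b)) := fun h => by
  obtain ⟨e, he, k1, k2⟩ := orth_bound h2 hq _ (Class.Orth.minusQF_apply (m - 1) F a b)
    (Class.Orth.nd_minusQF _ hab) (by simp; omega) h.tri
  simp only [Fintype.card_sum, Fintype.card_fin] at k1
  refine h.not_dvd_mul (not_dvd_of_dvd_four h2 (Nat.gcd_dvd_left 4 (Fintype.card F ^ m + 1))) ?_
  rw [S0294.result rfl m hm a b hab]
  exact (four_dvd_even' h2 hq he (by omega) (by omega) k2).mul_left _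

end Cfsg.Agent.XP
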