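import Mathlib
import Cfsg.Agent.XP.Cls
import Cfsg.Agent.S2378
import Cfsg.Agent.S0331
import Cfsg.Agent.Chev.TwistConc

/-!
Exceptional groups with a non-abelian Sylow subgroup of order `p ^ 3` in cross characteristic.
-/

set_option autoImplicit false
set_option linter.unusedSectionVars false

namespace Cfsg.Agent.XP

open Subgroup Cfsg Cfsg.Lie

theorem five_cases {q : ℕ} (hq : ¬ 5 ∣ q) :
    (5 : ℤ) ∣ (q : ℤ) ^ 2 - 1 ∨ (q : ZMod 5) = 2 ∨ (q : ZMod 5) = 3 := by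
  rw [← ZMod.natCast_eq_zero_iff] at hq
  rw [show (5 : ℤ) = (5 : ℕ) from rfl, ← ZMod.intCast_zmod_eq_zero_iff_dvd]
  push_cast
  generalize (q : ZMod 5) = a at hq
  revert a
  decide

theorem five_dvd {q : ℕ} (hq : ¬ 5 ∣ q) : (5 : ℤ) ∣ (q : ℤ) ^ 4 - 1 := by
  rw [← ZMod.natCast_eq_zero_iff] at hq
  rw [show (5 : ℤ) = (5 : ℕ) from rfl, ← ZMod.intCast_zmod_eq_zero_iff_dvd]
  push_cast
  generalize (q : ZMod 5) = a at hq
  revert a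
  decide

theorem seven_dvd {q : ℕ} (hq : ¬ 7 ∣ q) : (7 : ℤ) ∣ (q : ℤ) ^ 6 - 1 := by
  rw [← ZMod.natCast_eq_zero_iff] at hq
  rw [show (7 : ℤ) = (7 : ℕ) from rfl, ← ZMod.intCast_zmod_eq_zero_iff_dvd]
  push_cast
  generalize (q : ZMod 7) = a at hq
  revert a
  decide

theorem seven_cases {q : ℕ} (hq : ¬ 7 ∣ q) : (7 : ℤ) ∣ (q : ℤ) ^ 2 - 1 ∨
    (q : ZMod 7) = 2 ∨ (q : ZMod 7) = 4 ∨ (q : ZMod 7) = 3 ∨ (q : ZMod 7) = 5 := by
  rw [← ZMod.natCast_eq_zero_iff] at hq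
  rw [show (7 : ℤ) = (7 : ℕ) from rfl, ← ZMod.intCast_zmod_eq_zero_iff_dvd]
  push_cast
  generalize (q : ZMod 7) = a at hq
  revert a
  decide

theorem nd_E6 {q : ℕ} (h : (q : ZMod 5) = 2 ∨ (q : ZMod 5) = 3) :
    ¬ (5 : ℤ) ∣ (q : ℤ) ^ 36 * (q ^ 2 - 1) * (q ^ 5 - 1) * (q ^ 6 - 1) * (q ^ 4 + 1) * (q ^ 9 - 1) *
      (q ^ 8 + q ^ 4 + 1) := by
  rw [show (5 : ℤ) = (5 : ℕ) from rfl, ← ZMod.intCast_zmod_eq_zero_iff_dvd]
  push_cast
  rcases h with h | h <;> rw [h] <;> decide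

theorem nd_2E6 {q : ℕ} (h : (q : ZMod 5) = 2 ∨ (q : ZMod 5) = 3) :
    ¬ (5 : ℤ) ∣ (q : ℤ) ^ 36 * (q ^ 2 - 1) * (q ^ 5 + 1) * (q ^ 6 - 1) * (q ^ 4 + 1) * (q ^ 9 + 1) *
      (q ^ 8 + q ^ 4 + 1) := by
  rw [show (5 : ℤ) = (5 : ℕ) from rfl, ← ZMod.intCast_zmod_eq_zero_iff_dvd]
  push_cast
  rcases h with h | h <;> rw [h] <;> decide

theorem nd_E7 {q : ℕ} (h : (q : ZMod 5) = 2 ∨ (q : ZMod 5) = 3) :
    ¬ (5 : ℤ) ∣ (q : ℤ) ^ 63 * (q ^ 2 - 1) * (q ^ 6 - 1) * (q ^ 4 + 1) * (q ^ 10 - 1) *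
      (q ^ 8 + q ^ 4 + 1) * (q ^ 14 - 1) * (q ^ 18 - 1) := by
  rw [show (5 : ℤ) = (5 : ℕ) from rfl, ← ZMod.intCast_zmod_eq_zero_iff_dvd]
  push_cast
  rcases h with h | h <;> rw [h] <;> decide

theorem three_dvd_sum {q : ℕ} (hq : ¬ 3 ∣ q) : (3 : ℤ) ∣ (q : ℤ) ^ 8 + q ^ 4 + 1 := by
  rw [← ZMod.natCast_eq_zero_iff] at hq
  rw [show (3 : ℤ) = (3 : ℕ) from rfl, ← ZMod.intCast_zmod_eq_zero_iff_dvd]
  push_cast
  generalize (q : ZMod 3) = a at hq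
  revert a
  decide

theorem nine_dvd {r a : ℕ} (h3 : ¬ 3 ∣ r)
    (h : ¬ ((r % 9 = 2 ∨ r % 9 = 4 ∨ r % 9 = 5 ∨ r % 9 = 7) ∧ ¬ 3 ∣ a)) :
    (9 : ℤ) ∣ ((r : ℤ) ^ a) ^ 2 - 1 := by
  by_cases ha : 3 ∣ a
  · obtain ⟨b, rfl⟩ := ha
    have h1 : (3 : ℤ) ∣ ((r : ℤ) ^ 2) ^ b - 1 :=
      (three_dvd h3).trans (by simpa using sub_dvd_pow_sub_pow ((r : ℤ) ^ 2) 1 b)
    have := dvd_sub_pow_of_dvd_sub (p := 3) h1 1
    norm_num at this
    rwa [← pow_mul, ← pow_mul, show 2 * (b * 3) = 3 * b * 2 by ring, pow_mul] at this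
  · have h1 : (9 : ℤ) ∣ (r : ℤ) ^ 2 - 1 := by
      obtain ⟨k, hk⟩ : ∃ k : ℤ, (r : ℤ) = 9 * k + 1 ∨ (r : ℤ) = 9 * k + 8 := ⟨r / 9, by omega⟩
      rcases hk with hk | hk <;> rw [hk]
      · exact ⟨9 * k ^ 2 + 2 * k, by ring⟩
      · exact ⟨9 * k ^ 2 + 16 * k + 7, by ring⟩
    rw [← pow_mul, mul_comm, pow_mul]
    exact h1.trans (by simpa using sub_dvd_pow_sub_pow ((r : ℤ) ^ 2) 1 a)

variable {p : ℕ} [hp : Fact p.Prime]

theorem eq_of_dvd_pow {r a : ℕ} (hr : r.Prime) (h : p ∣ r ^ a) : p = r :=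
  (Nat.prime_dvd_prime_iff_eq hp.out hr).1 (hp.out.dvd_of_dvd_pow h)

theorem cases23 (h2 : p ≠ 2) {n : ℕ} (h : p ∣ n) (hn : n ∣ 2 ^ 14 * 3 ^ 5) : p = 3 :=
  (hp.out.dvd_mul.1 (h.trans hn)).elim (fun h => absurd (eq_of_dvd_pow Nat.prime_two h) h2)
    (eq_of_dvd_pow Nat.prime_three)

theorem cases235 (h2 : p ≠ 2) {n : ℕ} (h : p ∣ n) (hn : n ∣ 2 ^ 14 * 3 ^ 5 * 5 ^ 2) :
    p = 3 ∨ p = 5 :=
  (hp.out.dvd_mul.1 (h.trans hn)).imp (cases23 h2 · dvd_rfl) (eq_of_dvd_pow Nat.prime_five)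

theorem cases2357 (h2 : p ≠ 2) {n : ℕ} (h : p ∣ n) (hn : n ∣ 2 ^ 14 * 3 ^ 5 * 5 ^ 2 * 7 ^ 1) :
    (p = 3 ∨ p = 5) ∨ p = 7 :=
  (hp.out.dvd_mul.1 (h.trans hn)).imp (cases235 h2 · dvd_rfl) (eq_of_dvd_pow (by norm_num))

theorem four_of {a b c d : ℤ} (ha : (p : ℤ) ∣ a) (hb : (p : ℤ) ∣ b) (hc : (p : ℤ) ∣ c)
    (hd : (p : ℤ) ∣ d) : (p : ℤ) ^ 4 ∣ a * b * c * d := by
  rw [show (p : ℤ) ^ 4 = p * p * p * p by ring]
  exact mul_dvd_mul (mul_dvd_mul (mul_dvd_mul ha hb) hc) hd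

theorem H3.false_of {G : Type*} [Group G] [Finite G] (h : H3 p G) {c : ℕ} (hc : ¬ p ∣ c) {X : ℤ}
    (e : (c : ℤ) * Nat.card G = X) (hX : (p : ℤ) ^ 4 ∣ X) : False :=
  h.not_dvd_mul hc (by rw [← e] at hX; exact_mod_cast hX)

theorem H3.false_of' {G : Type*} [Group G] [Finite G] (h : H3 p G) {c : ℕ} (hc : c ∣ p) {X : ℤ}
    (e : (c : ℤ) * Nat.card G = X) (hX : (p : ℤ) ^ 5 ∣ X) : False := by
  have h1 : (p : ℤ) ^ 5 ∣ p * Nat.card G :=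
    hX.trans (e ▸ mul_dvd_mul_right (Int.natCast_dvd_natCast.2 hc) _)
  rw [pow_succ', mul_dvd_mul_iff_left prime_int.ne_zero] at h1
  exact h.not_dvd' h1

theorem NA.dvd_card {G : Type*} [Group G] [Finite G] (h : NA p G) : p ∣ Nat.card G := by
  by_contra h1
  obtain ⟨P⟩ : Nonempty (Sylow p G) := inferInstance
  have h2 := P.card_eq_multiplicity
  rw [Nat.factorization_eq_zero_of_not_dvd h1, pow_zero] at h2
  have := (Nat.card_eq_one_iff_unique.1 h2).1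
  exact h.not_comm P ⟨⟨fun _ _ => Subsingleton.elim _ _⟩⟩

variable {F : Type*} [Field F] [Fintype F]

theorem NA.dvd_weyl (c : ChevalleyDatum × List ℕ)
    (hc : c ∈ [(chevG2, [2, 6]), (chevB2, [2, 4]), (chevD4, [2, 4, 4, 6]), (chevF4, [2, 6, 8, 12]),
      (chevE6, [2, 5, 6, 8, 9, 12]), (chevE7, [2, 6, 8, 10, 12, 14, 18]),
      (chevE8, [2, 8, 12, 14, 18, 20, 24, 30])])
    (hq : ¬ p ∣ Fintype.card F) (h : NA p (c.1.group F)) : p ∣ c.2.prod := by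
  by_contra h1
  obtain ⟨P⟩ : Nonempty (Sylow p (c.1.group F)) := inferInstance
  obtain ⟨e⟩ := S2378.result rfl c hc p hq h1 h.dvd_card P
  exact h.not_comm P ⟨⟨fun a b => e.injective (by rw [map_mul, map_mul, mul_comm])⟩⟩

theorem NA.of_le {G : Type*} [Group G] {A B : Subgroup G} (hAB : A ≤ B) (h : NA p A) : NA p B :=
  h.map (inclusion hAB) (inclusion_injective hAB)

theorem one_le_pow' {q : ℕ} (hq : ¬ p ∣ q) (k : ℕ) : 1 ≤ q ^ k :=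
  Nat.one_le_pow _ _ (Nat.pos_of_ne_zero fun h => hq (h ▸ dvd_zero p))

theorem not_dvd_gcd {a b : ℕ} (ha : ¬ p ∣ a) : ¬ p ∣ Nat.gcd a b :=
  fun h => ha (h.trans (Nat.gcd_dvd_left _ _))

theorem of_G2 (h2 : p ≠ 2) (hq : ¬ p ∣ Fintype.card F) (h : H3 p (chevG2.group F)) {r a : ℕ}
    (hF : Fintype.card F = r ^ a) (ha : 1 ≤ a) :
    p = 3 ∧ (r % 9 = 2 ∨ r % 9 = 4 ∨ r % 9 = 5 ∨ r % 9 = 7) ∧ ¬ 3 ∣ a := by
  obtain rfl := cases23 h2 (h.na.dvd_weyl (chevG2, [2, 6]) (by simp) hq) (by decide)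
  refine ⟨rfl, by_contra fun h1 => ?_⟩
  have h3 := nine_dvd (fun h => hq (hF ▸ dvd_pow h (by omega))) h1
  have h4 := S1059.result (F := F) rfl
  zify [one_le_pow' hq] at h4
  rw [← Nat.cast_pow, ← hF] at h3
  refine h.false_of (c := 1) (by norm_num) (by rw [Nat.cast_one, one_mul, h4]) ?_
  rw [mul_assoc, show ((3 : ℕ) : ℤ) ^ 4 = 9 * 9 by norm_num]
  refine (mul_dvd_mul h3 (h3.trans ?_)).mul_left _
  exact ⟨(Fintype.card F : ℤ) ^ 4 + Fintype.card F ^ 2 + 1, by ring⟩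

theorem not_F4 (h2 : p ≠ 2) (hq : ¬ p ∣ Fintype.card F) : ¬ H3 p (chevF4.group F) := fun h => by
  obtain rfl := cases23 h2 (h.na.dvd_weyl (chevF4, [2, 6, 8, 12]) (by simp) hq) (by decide)
  have h3 := dvd_pow_mul (p := 3) (three_dvd hq)
  have h4 := S1062.result (F := F) rfl
  zify [one_le_pow' hq] at h4
  exact h.false_of (c := 1) (by norm_num) (by rw [Nat.cast_one, one_mul, h4])
    ((four_of (h3 1) (h3 3) (h3 4) (h3 6)).trans ⟨(Fintype.card F : ℤ) ^ 24, by ring⟩)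

theorem five_of {a b c d : ℤ} (ha : (p : ℤ) ∣ a) (hb : (p : ℤ) ^ 2 ∣ b) (hc : (p : ℤ) ∣ c)
    (hd : (p : ℤ) ∣ d) : (p : ℤ) ^ 5 ∣ a * b * c * d := by
  rw [show (p : ℤ) ^ 5 = p * p ^ 2 * p * p by ring]
  exact mul_dvd_mul (mul_dvd_mul (mul_dvd_mul ha hb) hc) hd

theorem not_E6 (h2 : p ≠ 2) (hq : ¬ p ∣ Fintype.card F) : ¬ H3 p (chevE6.group F) := fun h => by
  have h4 := S1063.result (F := F) rfl
  zify [one_le_pow' hq] at h4
  set q := Fintype.card F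
  rcases cases235 h2 (h.na.dvd_weyl (chevE6, [2, 5, 6, 8, 9, 12]) (by simp) hq) (by decide) with
    rfl | rfl
  · have h3 := dvd_pow_mul (p := 3) (three_dvd hq)
    exact h.false_of' (Nat.gcd_dvd_left _ _) h4
      ((five_of (h3 1) (sq_dvd_pow_mul (p := 3) (three_dvd hq)) (h3 4) (h3 6)).trans
        ⟨q ^ 36 * (q ^ 5 - 1) * (q ^ 9 - 1), by ring⟩)
  · rcases five_cases hq with h3 | h3
    · have h3 := dvd_pow_mul (p := 5) h3
      exact h.false_of (not_dvd_gcd (by norm_num)) h4 ((four_of (h3 1) (h3 3) (h3 4) (h3 6)).trans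
        ⟨q ^ 36 * (q ^ 5 - 1) * (q ^ 9 - 1), by ring⟩)
    · exact not_sq h.dvd' h.not_dvd' (Int.natCast_dvd_natCast.not.2 (not_dvd_gcd (by norm_num)))
        (nd_E6 h3) (A := q ^ 4 - 1) (h4.trans (by ring))

theorem not_2E6 (h2 : p ≠ 2) {q : ℕ} (hq' : IsPrimePow q) (hF : Fintype.card F = q ^ 2)
    (hq : ¬ p ∣ q) : ¬ H3 p (twistedE6 F q) := fun h => by
  have h4 := S1066.result hq' hF
  zify [one_le_pow' hq] at h4
  rcases cases235 h2 ((h.na.of_le (Chev.genSubgroup_le _)).dvd_weyl (chevE6, [2, 5, 6, 8, 9, 12])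
    (by simp) fun h => hq (hp.out.dvd_of_dvd_pow (hF ▸ h))) (by decide) with rfl | rfl
  · have h3 := dvd_pow_mul (p := 3) (three_dvd hq)
    exact h.false_of' (Nat.gcd_dvd_left _ _) h4
      ((five_of (h3 1) (sq_dvd_pow_mul (p := 3) (three_dvd hq)) (h3 4) (h3 6)).trans
        ⟨q ^ 36 * (q ^ 5 + 1) * (q ^ 9 + 1), by ring⟩)
  · rcases five_cases hq with h3 | h3
    · have h3 := dvd_pow_mul (p := 5) h3
      exact h.false_of (not_dvd_gcd (by norm_num)) h4 ((four_of (h3 1) (h3 3) (h3 4) (h3 6)).trans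
        ⟨q ^ 36 * (q ^ 5 + 1) * (q ^ 9 + 1), by ring⟩)
    · exact not_sq h.dvd' h.not_dvd' (Int.natCast_dvd_natCast.not.2 (not_dvd_gcd (by norm_num)))
        (nd_2E6 h3) (A := q ^ 4 - 1) (h4.trans (by ring))

theorem ord_seven {q : ℕ} : ((q : ZMod 7) = 2 ∨ (q : ZMod 7) = 4 → orderOf (q : ZMod 7) = 3) ∧
    ((q : ZMod 7) = 3 ∨ (q : ZMod 7) = 5 → orderOf (q : ZMod 7) = 6) := by
  refine ⟨?_, ?_⟩ <;> rintro (h | h) <;> rw [h, orderOf_eq_iff (by norm_num)] <;> decide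

theorem not_E7 (h2 : p ≠ 2) (hq : ¬ p ∣ Fintype.card F) : ¬ H3 p (chevE7.group F) := fun h => by
  have h4 := S1064.result (F := F) rfl
  zify [one_le_pow' hq] at h4
  have h5 : (p : ℤ) ∣ (Fintype.card F : ℤ) ^ 2 - 1 → False := fun h3 => by
    have h3 := dvd_pow_mul h3
    exact h.false_of (not_dvd_gcd (not_dvd_of_dvd_four h2 (by norm_num))) h4
      ((four_of (h3 1) (h3 3) (h3 4) (h3 5)).trans ⟨(Fintype.card F : ℤ) ^ 63 *
        (Fintype.card F ^ 12 - 1) * (Fintype.card F ^ 14 - 1) * (Fintype.card F ^ 18 - 1), by ring⟩)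
  rcases cases2357 h2 (h.na.dvd_weyl (chevE7, [2, 6, 8, 10, 12, 14, 18]) (by simp) hq)
    (by decide) with (rfl | rfl) | rfl
  · exact h5 (three_dvd hq)
  · rcases five_cases hq with h3 | h3
    · exact h5 h3
    · exact not_sq h.dvd' h.not_dvd' (Int.natCast_dvd_natCast.not.2 (not_dvd_gcd (by norm_num)))
        (nd_E7 h3) (A := Fintype.card F ^ 4 - 1) (h4.trans (by ring))
  · have key : ∀ c : Lang.HC, c.ok chevE7 3 = true → 0 < c.d →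
        orderOf (Fintype.card F : ZMod 7) = c.d → False := fun c k1 k2 k3 => by
      obtain ⟨φ, hφ⟩ := Lang.HC.exists_hom (by simp) Chev.rootTableE7 k1 (r := 7) (v := 1) hp.out k3
        k2 (by rw [pow_one, Lang.dvd_pow_sub_one_iff, k3]) hq (by
          rw [Chev.card_ker_tor rfl (p := (chevE7, Nat.gcd 2 (Fintype.card F - 1))) (by simp)]
          exact not_dvd_gcd (by norm_num))
      exact h.false_of_hom φ hφ (by simp)
    rcases seven_cases hq with h3 | h3 | h3 | h3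
    · exact h5 h3
    · exact key _ Lang.hcE7_3_ok (by decide) (ord_seven.1 (.inl h3))
    · exact key _ Lang.hcE7_3_ok (by decide) (ord_seven.1 (.inr h3))
    · exact key _ Lang.hcE7_6_ok (by decide) (ord_seven.2 h3)

theorem not_E8 (h2 : p ≠ 2) (hq : ¬ p ∣ Fintype.card F) : ¬ H3 p (chevE8.group F) := fun h => by
  have h4 := S1065.result (F := F) rfl
  zify [one_le_pow' hq] at h4
  set q := Fintype.card F
  have h5 : (p : ℤ) ∣ (q : ℤ) ^ 6 - 1 → False := fun h3 => by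
    have h3 := dvd_pow_mul h3
    exact h.false_of (c := 1) hp.out.not_dvd_one (by rw [Nat.cast_one, one_mul, h4])
      ((four_of (h3 2) (h3 3) (h3 4) (h3 5)).trans
        ⟨q ^ 120 * (q ^ 2 - 1) * (q ^ 8 - 1) * (q ^ 14 - 1) * (q ^ 20 - 1), by ring⟩)
  rcases cases2357 h2 (h.na.dvd_weyl (chevE8, [2, 8, 12, 14, 18, 20, 24, 30]) (by simp) hq)
    (by decide) with (rfl | rfl) | rfl
  · exact h5 (dvd_pow_mul (p := 3) (three_dvd hq) 3)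
  · have h3 := dvd_pow_mul (p := 5) (five_dvd hq)
    exact h.false_of (c := 1) hp.out.not_dvd_one (by rw [Nat.cast_one, one_mul, h4])
      ((four_of (h3 2) (h3 3) (h3 5) (h3 6)).trans
        ⟨q ^ 120 * (q ^ 2 - 1) * (q ^ 14 - 1) * (q ^ 18 - 1) * (q ^ 30 - 1), by ring⟩)
  · exact h5 (seven_dvd hq)

theorem not_3D4 (h2 : p ≠ 2) {q : ℕ} (hq' : IsPrimePow q) (hF : Fintype.card F = q ^ 3)
    (hq : ¬ p ∣ q) : ¬ H3 p (twistedD4 F q) := fun h => by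
  have h4 := S1067.result hq' hF
  zify [one_le_pow' hq] at h4
  obtain rfl := cases23 h2 ((h.na.of_le (Chev.genSubgroup_le _)).dvd_weyl (chevD4, [2, 4, 4, 6])
    (by simp) fun h => hq (hp.out.dvd_of_dvd_pow (hF ▸ h))) (by decide)
  refine h.false_of (c := 1) hp.out.not_dvd_one (by rw [Nat.cast_one, one_mul, h4]) ?_
  rw [show ((3 : ℕ) : ℤ) ^ 4 = 1 * 3 * (3 : ℕ) ^ 2 * 3 by norm_num]
  exact mul_dvd_mul (mul_dvd_mul (mul_dvd_mul (one_dvd _) (three_dvd hq))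
    (sq_dvd_pow_mul (p := 3) (three_dvd hq))) (three_dvd_sum hq)

theorem of_2F4 (h2 : p ≠ 2) {m : ℕ} (hF : Fintype.card F = 2 ^ (2 * m + 1))
    (h : H3 p (twistedF4 F (2 ^ m))) : p = 3 ∧ ¬ 3 ∣ 2 * m + 1 := by
  have h4 := S1068.result hF
  have hq : ¬ p ∣ 2 ^ (2 * m + 1) := fun h => h2 (eq_of_dvd_pow Nat.prime_two h)
  obtain rfl := cases23 h2 ((h.na.of_le (Chev.genSubgroup_le _)).dvd_weyl (chevF4, [2, 6, 8, 12])
    (by simp) (hF ▸ hq)) (by decide)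
  refine ⟨rfl, fun ⟨b, hb⟩ => ?_⟩
  have h5 : 9 ∣ 2 ^ (2 * m + 1) + 1 := by
    have := Odd.nat_add_dvd_pow_add_pow (2 ^ 3) 1 (n := b) (Nat.odd_iff.2 (by omega))
    rwa [← pow_mul, ← hb, one_pow] at this
  generalize 2 ^ (2 * m + 1) = q at h4 h5 hq
  have h6 : q + 1 ∣ q ^ 3 + 1 := by simpa using Odd.nat_add_dvd_pow_add_pow q 1 (n := 3) (by decide)
  have h7 : q + 1 ∣ q ^ 4 - 1 := by
    have := one_le_pow' hq 4
    zify [this]
    exact ⟨(q - 1) * (q ^ 2 + 1), by ring⟩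
  refine h.not_dvd (h4 ▸ Dvd.dvd.mul_right ?_ _)
  rw [mul_assoc, show 3 ^ 4 = 9 * 9 from rfl]
  exact (mul_dvd_mul (h5.trans h6) (h5.trans h7)).mul_left _

theorem not_2G2 (h2 : p ≠ 2) {m : ℕ} (hm : 1 ≤ m) (hF : Fintype.card F = 3 ^ (2 * m + 1)) :
    ¬ H3 p (twistedG2 F (3 ^ m)) := fun h => by
  have h3 : p = 3 := by
    by_contra h3
    exact h3 (cases23 h2 ((h.na.of_le (Chev.genSubgroup_le _)).dvd_weyl (chevG2, [2, 6])
      (by simp) (hF ▸ fun h => h3 (eq_of_dvd_pow Nat.prime_three h))) (by decide))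
  subst h3
  refine h.not_dvd (S1069.result hF ▸ Dvd.dvd.mul_right (Dvd.dvd.mul_right ?_ _) _)
  rw [← pow_mul]
  exact pow_dvd_pow _ (by omega)

theorem not_Sz (h2 : p ≠ 2) {m : ℕ} (hm : 1 ≤ m) (hF : Fintype.card F = 2 ^ (2 * m + 1)) :
    ¬ H3 p (Lie.Sz F (2 ^ (m + 1))) := fun h => by
  have := Chev.SzField.of_fintype hm hF
  obtain ⟨P⟩ : Nonempty (Sylow p (Cfsg.Sz F m)) := inferInstance
  have := S0331.result hm hF h2 P
  exact (h.of_equiv (Chev.Suz.lieEquiv F).symm).na.not_comm P inferInstance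

end Cfsg.Agent.XP
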